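import Mathlib
import Cfsg.Agent.Lib.Helper18.SLMDefs
import Cfsg.Agent.Lib.Helper87.SLTransv

/-! Project SLM (S2332, helper18), piece NORMCL: a representation of `SL_{k+2}(F)` (`k ≥ 1`)
that is trivial on the elements `x1 u` is trivial (the transvections form one conjugacy class
and generate). -/

set_option autoImplicit false

namespace Cfsg.Agent.Lib.Helper18.SLM

open Matrix

universe u

variable {F : Type u} [Field F] [Fintype F]

omit [Fintype F] in
theorem normcl_x1_mem_tvSet {k : ℕ} :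
    (x1 (Pi.single 0 1 : Fin (k + 1) → F) : Matrix.SpecialLinearGroup (Fin (k + 2)) F) ∈
      Cfsg.Agent.Lib.Helper87.tvSet (Fin (k + 2)) F := by
  refine ⟨Pi.single 0 1, (Fin.cons 0 (Pi.single 0 1 : Fin (k + 1) → F) : Fin (k + 2) → F),
    ?_, ?_, ?_, ?_⟩
  · intro h0
    have h1 := congrFun h0 0
    rw [Pi.single_eq_same] at h1
    exact one_ne_zero h1
  · intro h0
    have h1 := congrFun h0 (Fin.succ 0)
    rw [Fin.cons_succ, Pi.single_eq_same] at h1
    exact one_ne_zero h1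
  · rw [dotProduct_single, Fin.cons_zero, zero_mul]
  · exact x1_val _

-- piece NORMCL
theorem rep_trivial_of_x1 {V : Type*} [AddCommGroup V] [Module ℂ V] {k : ℕ} (hk : 1 ≤ k)
    (ρ : Representation ℂ (Matrix.SpecialLinearGroup (Fin (k + 2)) F) V)
    (h : ∀ u : Fin (k + 1) → F, ρ (x1 u) = 1) : ∀ g, ρ g = 1 := by
  have hij : (⟨0, by omega⟩ : Fin (k + 2)) ≠ ⟨1, by omega⟩ := fun e =>
    absurd (show (0 : ℕ) = 1 from congrArg Fin.val e) (by decide)
  have hik : (⟨0, by omega⟩ : Fin (k + 2)) ≠ ⟨2, by omega⟩ := fun e =>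
    absurd (show (0 : ℕ) = 2 from congrArg Fin.val e) (by decide)
  have hjk : (⟨1, by omega⟩ : Fin (k + 2)) ≠ ⟨2, by omega⟩ := fun e =>
    absurd (show (1 : ℕ) = 2 from congrArg Fin.val e) (by decide)
  obtain ⟨g0, hg0⟩ := Cfsg.Agent.Lib.Helper87.tvSet_conj_std hij hik hjk
    (normcl_x1_mem_tvSet (F := F) (k := k))
  have h0 : ρ (x1 (Pi.single 0 1 : Fin (k + 1) → F)) = 1 := h _
  have hgen : ∀ t ∈ Cfsg.Agent.Lib.Helper87.tvSet (Fin (k + 2)) F, ρ t = 1 := by
    intro t ht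
    obtain ⟨g, hg⟩ := Cfsg.Agent.Lib.Helper87.tvSet_conj_std hij hik hjk ht
    have e1 : g⁻¹ * t * g = g0⁻¹ * x1 (Pi.single 0 1 : Fin (k + 1) → F) * g0 := hg.trans hg0.symm
    have e : t = (g * g0⁻¹) * x1 (Pi.single 0 1 : Fin (k + 1) → F) * (g * g0⁻¹)⁻¹ := by
      calc t = g * (g⁻¹ * t * g) * g⁻¹ := by group
        _ = g * (g0⁻¹ * x1 (Pi.single 0 1 : Fin (k + 1) → F) * g0) * g⁻¹ := by rw [e1]
        _ = (g * g0⁻¹) * x1 (Pi.single 0 1 : Fin (k + 1) → F) * (g * g0⁻¹)⁻¹ := by group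
    rw [e, map_mul, map_mul, h0, mul_one, ← map_mul, mul_inv_cancel, map_one]
  intro g
  have hmem : g ∈ Subgroup.closure (Cfsg.Agent.Lib.Helper87.tvSet (Fin (k + 2)) F) := by
    rw [Cfsg.Agent.Lib.Helper87.closure_tvSet]; exact Subgroup.mem_top g
  induction hmem using Subgroup.closure_induction with
  | mem t ht => exact hgen t ht
  | one => exact map_one ρ
  | mul a b _ _ ha hb => rw [map_mul, ha, hb, mul_one]
  | inv a _ ha =>
    have h1 : ρ a⁻¹ * ρ a = 1 := by rw [← map_mul, inv_mul_cancel, map_one]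
    rw [ha, mul_one] at h1
    exact h1

end Cfsg.Agent.Lib.Helper18.SLM
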