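import Mathlib
import Cfsg.Prelude.Def_Classical
import Cfsg.Agent.Lib.Helper18.UEDefs
import Cfsg.Agent.Lib.Helper18.UODefs

/-!
# Project UO (helper18, S2334), piece BLOCKX: the Heisenberg elements `xB3` commute with the
centre `uB3 H`, and their commutator relation.
-/

set_option autoImplicit false

namespace Cfsg.Agent.Lib.Helper18.UE

open Matrix

universe u

variable {F : Type u} [Field F] {m : ℕ}

private theorem blockx_colA_rowA (σ : F →+* F) (β : F) (a a' : Fin m → F) :
    colA a * rowA σ β a' = fromBlocks 0 (β • outer σ a a') 0 0 := by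
  ext i j
  rcases i with i | i <;> rcases j with j | j <;>
    simp [Matrix.mul_apply, colA, rowA, outer]
  ring

private theorem blockx_rowA_colA (σ : F →+* F) (β : F) (a a' : Fin m → F) :
    rowA σ β a * colA a' = 0 := by
  ext i j
  simp [Matrix.mul_apply, colA, rowA, Fintype.sum_sum_type]

private theorem blockx_uB_colA (H : Matrix (Fin m) (Fin m) F) (a : Fin m → F) :
    uB H * colA a = colA a := by
  ext i j
  rcases i with i | i <;>
    simp [Matrix.mul_apply, uB, colA, Fintype.sum_sum_type, Matrix.one_apply]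

private theorem blockx_rowA_uB (σ : F →+* F) (β : F) (a : Fin m → F)
    (H : Matrix (Fin m) (Fin m) F) : rowA σ β a * uB H = rowA σ β a := by
  ext i j
  rcases j with j | j <;>
    simp [Matrix.mul_apply, uB, rowA, Fintype.sum_sum_type, Matrix.one_apply]

private theorem blockx_uB_mul (H H' : Matrix (Fin m) (Fin m) F) :
    uB H * uB H' = uB (H' + H) := by
  unfold uB
  rw [fromBlocks_multiply]
  simp

private theorem blockx_uB_add (H X : Matrix (Fin m) (Fin m) F) :
    uB H + fromBlocks 0 X 0 0 = uB (H + X) := by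
  unfold uB
  rw [fromBlocks_add]
  simp

-- piece BLOCKX
theorem xB3_mul_uB3 (σ : F →+* F) (β η : F) (a : Fin m → F) (H : Matrix (Fin m) (Fin m) F) :
    xB3 σ β η a * uB3 H = uB3 H * xB3 σ β η a := by
  unfold xB3 uB3
  rw [fromBlocks_multiply, fromBlocks_multiply]
  simp only [Matrix.mul_zero, Matrix.zero_mul, Matrix.mul_one, Matrix.one_mul, add_zero,
    zero_add, blockx_uB_colA, blockx_rowA_uB, blockx_uB_mul]
  rw [add_comm]

-- piece BLOCKX
theorem xB3_mul_xB3 (σ : F →+* F) (β η : F) (a a' : Fin m → F) :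
    xB3 σ β η a * xB3 σ β η a' = uB3 (cmat σ β a a') * (xB3 σ β η a' * xB3 σ β η a) := by
  unfold xB3 uB3
  rw [fromBlocks_multiply, fromBlocks_multiply, fromBlocks_multiply]
  simp only [Matrix.mul_zero, Matrix.zero_mul, Matrix.mul_one, Matrix.one_mul, add_zero,
    zero_add, blockx_uB_colA, blockx_rowA_uB, blockx_uB_mul, blockx_colA_rowA,
    blockx_rowA_colA, blockx_uB_add, Matrix.mul_add]
  congr 1
  · congr 1
    unfold cmat
    ext i j
    simp only [Matrix.add_apply, Matrix.smul_apply, Matrix.sub_apply, smul_eq_mul]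
    ring
  · rw [add_comm]
  · rw [add_comm]

end Cfsg.Agent.Lib.Helper18.UE
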