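import Mathlib
import Cfsg.Agent.Lib.Helper48.QADefs

/-! Project QA (helper48, S2787), piece PBRAID: explicit braid relations in `SL₂(F)` for
`ux t` and `ly (-t⁻¹)`. -/

set_option autoImplicit false

universe u

namespace Cfsg.Agent.Lib.Helper48.QA

open Matrix Polynomial

local notation "SL2" F => Matrix.SpecialLinearGroup (Fin 2) F
local notation "PSL2" F => Matrix.ProjectiveSpecialLinearGroup (Fin 2) F
local notation "M2" F => Matrix (Fin 2) (Fin 2) F

theorem pbraid_ext {F : Type*} [Field F] (a b : SL2 F)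
    (h00 : (a : M2 F) 0 0 = (b : M2 F) 0 0) (h01 : (a : M2 F) 0 1 = (b : M2 F) 0 1)
    (h10 : (a : M2 F) 1 0 = (b : M2 F) 1 0) (h11 : (a : M2 F) 1 1 = (b : M2 F) 1 1) : a = b := by
  apply Subtype.ext
  ext i j
  fin_cases i <;> fin_cases j
  · exact h00
  · exact h01
  · exact h10
  · exact h11

/-- QA-PBRAID -/
theorem sl2_braid {F : Type*} [Field F] (h2 : (2 : F) ≠ 0) (t : F) (ht : t ≠ 0) :
    ∃ g : SL2 F, g * ux t * g⁻¹ = ly (-t⁻¹) ∧
      ux t * ly (-t⁻¹) * ux t = ly (-t⁻¹) * ux t * ly (-t⁻¹) ∧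
      (ux t * ly (-t⁻¹)) ^ 3 ∈ Subgroup.center (SL2 F) ∧
      (ux t)⁻¹ * ly (-t⁻¹) ∉ Subgroup.center (SL2 F) := by
  have e1 : t * t⁻¹ = 1 := mul_inv_cancel₀ ht
  have e2 : t⁻¹ * t = 1 := inv_mul_cancel₀ ht
  have hg : ((!![0, t; -t⁻¹, 0] : M2 F)).det = 1 := by
    rw [Matrix.det_fin_two_of]
    linear_combination e1
  obtain ⟨g, hgdef⟩ : ∃ g : SL2 F, g = ⟨!![0, t; -t⁻¹, 0], hg⟩ := ⟨_, rfl⟩
  have hgm : (g : M2 F) = !![0, t; -t⁻¹, 0] := by rw [hgdef]
  have hx : ((ux t : SL2 F) : M2 F) = !![1, t; 0, 1] := rfl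
  have hy : ((ly (-t⁻¹) : SL2 F) : M2 F) = !![1, 0; -t⁻¹, 1] := rfl
  have hxyx : ux t * ly (-t⁻¹) * ux t = g := by
    apply pbraid_ext <;>
      simp only [Matrix.SpecialLinearGroup.coe_mul, hx, hy, hgm, Matrix.mul_apply,
        Fin.sum_univ_two, Matrix.of_apply, Matrix.cons_val_zero, Matrix.cons_val_one,
        Matrix.cons_val', Matrix.cons_val_fin_one] <;>
      field_simp <;> ring
  have hyxy : ly (-t⁻¹) * ux t * ly (-t⁻¹) = g := by
    apply pbraid_ext <;>
      simp only [Matrix.SpecialLinearGroup.coe_mul, hx, hy, hgm, Matrix.mul_apply,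
        Fin.sum_univ_two, Matrix.of_apply, Matrix.cons_val_zero, Matrix.cons_val_one,
        Matrix.cons_val', Matrix.cons_val_fin_one] <;>
      field_simp <;> ring
  have hgx : g * ux t = ly (-t⁻¹) * g := by
    apply pbraid_ext <;>
      simp only [Matrix.SpecialLinearGroup.coe_mul, hx, hy, hgm, Matrix.mul_apply,
        Fin.sum_univ_two, Matrix.of_apply, Matrix.cons_val_zero, Matrix.cons_val_one,
        Matrix.cons_val', Matrix.cons_val_fin_one] <;>
      field_simp <;> ring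
  have hgg : ((g * g : SL2 F) : M2 F) = -1 := by
    ext i j
    fin_cases i <;> fin_cases j <;>
      simp [Matrix.SpecialLinearGroup.coe_mul, hgm, Matrix.mul_apply, Fin.sum_univ_two] <;>
      field_simp
  have hcube : (ux t * ly (-t⁻¹)) ^ 3 = g * g := by
    calc (ux t * ly (-t⁻¹)) ^ 3
        = (ux t * ly (-t⁻¹) * ux t) * (ly (-t⁻¹) * ux t * ly (-t⁻¹)) := by
          rw [pow_succ, pow_succ, pow_one]; simp only [mul_assoc]
      _ = g * g := by rw [hxyx, hyxy]
  refine ⟨g, ?_, ?_, ?_, ?_⟩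
  · rw [hgx, mul_assoc, mul_inv_cancel, mul_one]
  · rw [hxyx, hyxy]
  · rw [hcube, Subgroup.mem_center_iff]
    intro h
    apply Subtype.ext
    rw [Matrix.SpecialLinearGroup.coe_mul h (g * g), Matrix.SpecialLinearGroup.coe_mul (g * g) h,
      hgg, mul_neg, neg_mul, mul_one, one_mul]
  · intro hc
    rw [Subgroup.mem_center_iff] at hc
    have hx' : ((ux (-t) : SL2 F) : M2 F) = !![1, -t; 0, 1] := rfl
    have hinv : (ux t : SL2 F)⁻¹ = ux (-t) := by
      apply inv_eq_of_mul_eq_one_right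
      apply pbraid_ext <;>
        simp only [Matrix.SpecialLinearGroup.coe_mul, Matrix.SpecialLinearGroup.coe_one, hx, hx',
          Matrix.mul_apply, Fin.sum_univ_two, Matrix.of_apply, Matrix.cons_val_zero,
          Matrix.cons_val_one, Matrix.cons_val', Matrix.cons_val_fin_one] <;>
        simp
    have h1 := congrArg (fun z : SL2 F => (z : M2 F) 0 0) (hc (ly 1))
    simp only [hinv, Matrix.SpecialLinearGroup.coe_mul] at h1
    have hy1 : ((ly (1 : F) : SL2 F) : M2 F) = !![1, 0; 1, 1] := rfl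
    rw [hx', hy, hy1] at h1
    simp [Matrix.mul_apply, Fin.sum_univ_two] at h1
    exact ht h1

end Cfsg.Agent.Lib.Helper48.QA
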