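import Mathlib
import Cfsg.Agent.Lib.Helper52.OutDefs
import Cfsg.Agent.Lib.Helper53.Hilbert90Gen
import Cfsg.Prelude.Def_LieTypeDatum

/-!
# Hilbert 90 normalisation of a similarity cocycle (helper53; piece LS-1 of helper52's S2735)

`lang_norm`: if the `r`-th power of the semilinear similarity `v ↦ g σ(v)` is a scalar, there is an
invertible matrix `B` with `g σ(B) = μ B` such that the form `ν Q(B ·)` is `σ`-invariant.
-/

set_option autoImplicit false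

namespace Cfsg.Agent.Lib.Helper53.LS

open Module QuadraticMap Matrix
open Cfsg.Agent.Lib.Helper52.OU Cfsg.Agent.Lib.Helper53.H90

variable {ι : Type} [Fintype ι] [DecidableEq ι] {F : Type*} [Field F]

local notation "mt(" g ")" => ((g : Matrix.GeneralLinearGroup ι F) : Matrix ι ι F)

omit [DecidableEq ι] in
theorem map_mulVec_sigma (σ : F ≃+* F) (M : Matrix ι ι F) (v : ι → F) :
    (fun i => σ ((M *ᵥ v) i)) = M.map σ *ᵥ (fun i => σ (v i)) := by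
  funext i
  simp only [Matrix.mulVec, dotProduct, map_sum, map_mul, Matrix.map_apply]

/-- the iterates of `v ↦ g σ(v)` -/
theorem slG_iter_tpow (σ : F ≃+* F) (g : GL ι F) (k : ℕ) (v : ι → F) :
    (slG σ mt(g))^[k] v = mt(tpow g σ k) *ᵥ (fun i => (σ ^ k) (v i)) := by
  induction k with
  | zero => simp
  | succ k ih =>
    rw [Function.iterate_succ_apply', ih, tpow_succ]
    unfold slG
    rw [map_mulVec_sigma, Matrix.mulVec_mulVec]
    congr 1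
    funext i
    rw [pow_succ_apply]

theorem lang_norm [Fintype F] [Nonempty ι] (Q : QuadraticForm F (ι → F)) (hv : ∃ v, Q v ≠ 0)
    (σ : F ≃+* F) (hQσ : ∀ v : ι → F, Q (fun i => σ (v i)) = σ (Q v))
    (r : ℕ) (hr0 : 0 < r) (hσ : orderOf (σ : RingAut F) = r) (g : GL ι F)
    (hg : g ∈ Cfsg.Geo.quadSimilarityGroup (F := F) ⇑Q) (c : Fˣ)
    (hN : mt(tpow g σ r) = (c : F) • (1 : Matrix ι ι F)) :
    ∃ (B : GL ι F) (μ ν : Fˣ), mt(g) * (mt(B)).map σ = (μ : F) • mt(B) ∧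
      ∀ v : ι → F, (ν : F) * Q (mt(B) *ᵥ (fun i => σ (v i))) = σ ((ν : F) * Q (mt(B) *ᵥ v)) := by
  classical
  have hσr : σ ^ r = 1 := by
    rw [← hσ]
    exact pow_orderOf_eq_one σ
  have hT : ∀ v, (slG σ mt(g))^[r] v = (c : F) • v := by
    intro v
    rw [slG_iter_tpow, hN, hσr, Matrix.smul_mulVec, Matrix.one_mulVec]
    rfl
  obtain ⟨B₀, c', hB₀, hc', hgB⟩ := exists_twistG σ r hr0 hσ mt(g) (c : F) c.ne_zero hT
  obtain ⟨cg, hcg⟩ := hg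
  obtain ⟨B, hB⟩ : ∃ B : GL ι F, mt(B) = B₀ :=
    ⟨Matrix.GeneralLinearGroup.mk'' B₀ hB₀, rfl⟩
  -- the key identity
  have hkey : ∀ v : ι → F, Q (B₀ *ᵥ (fun i => σ (v i))) =
      (c'⁻¹ ^ 2 * (cg : F)) * σ (Q (B₀ *ᵥ v)) := by
    intro v
    have h1 : mt(g) *ᵥ (fun i => σ ((B₀ *ᵥ v) i)) = c' • (B₀ *ᵥ (fun i => σ (v i))) := by
      rw [map_mulVec_sigma, Matrix.mulVec_mulVec, hgB, Matrix.smul_mulVec]
    have h2 : B₀ *ᵥ (fun i => σ (v i)) = c'⁻¹ • (mt(g) *ᵥ (fun i => σ ((B₀ *ᵥ v) i))) := by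
      rw [h1, smul_smul, inv_mul_cancel₀ hc', one_smul]
    rw [h2, QuadraticMap.map_smul, hcg, hQσ, smul_eq_mul]
    ring
  obtain ⟨κ, hκ⟩ : ∃ κ : F, κ = c'⁻¹ ^ 2 * (cg : F) := ⟨_, rfl⟩
  rw [← hκ] at hkey
  have hiter : ∀ (k : ℕ) (v : ι → F), Q (B₀ *ᵥ (fun i => (σ ^ k) (v i))) =
      nrm σ k κ * (σ ^ k) (Q (B₀ *ᵥ v)) := by
    intro k v
    induction k with
    | zero => simp [nrm]
    | succ k ih =>
      have e : (fun i => (σ ^ (k + 1)) (v i)) = fun i => σ ((fun j => (σ ^ k) (v j)) i) := by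
        funext i
        rw [pow_succ_apply]
      rw [e, hkey, ih, nrm_succ, map_mul, pow_succ_apply]
      ring
  obtain ⟨v₀, hv₀⟩ := hv
  have hnrm : nrm σ r κ = 1 := by
    have h1 := hiter r (B₀⁻¹ *ᵥ v₀)
    rw [hσr] at h1
    have h2 : B₀ *ᵥ (B₀⁻¹ *ᵥ v₀) = v₀ := by
      rw [Matrix.mulVec_mulVec, Matrix.mul_nonsing_inv _ hB₀, Matrix.one_mulVec]
    have h3 : (fun i => (1 : F ≃+* F) ((B₀⁻¹ *ᵥ v₀) i)) = B₀⁻¹ *ᵥ v₀ := rfl
    rw [h3, h2] at h1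
    have h4 : (1 : F ≃+* F) (Q v₀) = Q v₀ := rfl
    rw [h4] at h1
    have h5 : (nrm σ r κ - 1) * Q v₀ = 0 := by
      rw [sub_mul, one_mul, ← h1, sub_self]
    rcases mul_eq_zero.1 h5 with h6 | h6
    · exact sub_eq_zero.1 h6
    · exact absurd h6 hv₀
  obtain ⟨b, hb0, hb⟩ := exists_fixed_scalar σ r hr0 hσ κ hnrm
  have hκ0 : κ ≠ 0 := by
    rw [hκ]
    exact mul_ne_zero (pow_ne_zero _ (inv_ne_zero hc')) cg.ne_zero
  have hσb : σ b⁻¹ = κ * b⁻¹ := by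
    rw [map_inv₀]
    have h1 : σ b = κ⁻¹ * b := by
      rw [eq_inv_mul_iff_mul_eq₀ hκ0]
      exact hb
    rw [h1, mul_inv, inv_inv]
  refine ⟨B, Units.mk0 c' hc', Units.mk0 b⁻¹ (inv_ne_zero hb0), ?_, ?_⟩
  · rw [hB]
    exact hgB
  · intro v
    rw [hB]
    show b⁻¹ * Q (B₀ *ᵥ (fun i => σ (v i))) = σ (b⁻¹ * Q (B₀ *ᵥ v))
    rw [hkey, map_mul, hσb]
    ring

end Cfsg.Agent.Lib.Helper53.LS
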