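import Mathlib
import Cfsg.Agent.Lib.Helper52.OutDefs
import Cfsg.Agent.Lib.Helper53.LSNorm
import Cfsg.Agent.Lib.Helper51.HypPairs
import Cfsg.Agent.Lib.Helper51.OTransportOdd
import Cfsg.Prelude.Def_LieTypeDatum

/-!
# Lang's theorem for the similarity group of the odd-dimensional form (helper53; piece LS-3 of
helper52's S2735)

`lang_odd`: the statement of the piece (with the normalisation and the descent as hypotheses).
`lang_odd_of_desc`: the same with the normalisation hypothesis discharged by `lang_norm`.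
-/

set_option autoImplicit false

namespace Cfsg.Agent.Lib.Helper53.LS

open Module QuadraticMap Matrix
open Cfsg.Agent.Lib.Helper51 Cfsg.Agent.Lib.Helper52.OU Cfsg.Agent.Lib.Helper53.H90

variable {F : Type*} [Field F]

/-- the form `ν Q(B ·)` -/
noncomputable def twForm {ι : Type} [Fintype ι] [DecidableEq ι] (Q : QuadraticForm F (ι → F))
    (B : Matrix ι ι F) (ν : F) : QuadraticForm F (ι → F) :=
  ν • Q.comp (Matrix.toLin' B)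

theorem twForm_apply {ι : Type} [Fintype ι] [DecidableEq ι] (Q : QuadraticForm F (ι → F))
    (B : Matrix ι ι F) (ν : F) (v : ι → F) : twForm Q B ν v = ν * Q (B *ᵥ v) := by
  simp [twForm]

theorem twForm_nondeg {ι : Type} [Fintype ι] [DecidableEq ι] (Q : QuadraticForm F (ι → F))
    (hQ : (polarBilin Q).Nondegenerate) (B : Matrix ι ι F) (hB : IsUnit B.det) (ν : F)
    (hν : ν ≠ 0) : (polarBilin (twForm Q B ν)).Nondegenerate := by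
  have hpol : ∀ x y : ι → F, polarBilin (twForm Q B ν) x y =
      ν * polarBilin Q (B *ᵥ x) (B *ᵥ y) := by
    intro x y
    simp only [polarBilin_apply_apply, QuadraticMap.polar, twForm_apply, Matrix.mulVec_add]
    ring
  have hsurj : ∀ z : ι → F, ∃ y, B *ᵥ y = z := fun z =>
    ⟨B⁻¹ *ᵥ z, by rw [Matrix.mulVec_mulVec, Matrix.mul_nonsing_inv _ hB, Matrix.one_mulVec]⟩
  have hinj : ∀ x : ι → F, B *ᵥ x = 0 → x = 0 := by
    intro x hx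
    have := congrArg (fun w => B⁻¹ *ᵥ w) hx
    simpa [Matrix.mulVec_mulVec, Matrix.nonsing_inv_mul _ hB] using this
  constructor
  · intro x hx
    apply hinj
    apply hQ.1
    intro z
    obtain ⟨y, rfl⟩ := hsurj z
    have h1 := hx y
    rw [hpol] at h1
    rcases mul_eq_zero.1 h1 with h2 | h2
    · exact absurd h2 hν
    · exact h2
  · intro y hy
    apply hinj
    apply hQ.2
    intro z
    obtain ⟨x, rfl⟩ := hsurj z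
    have h1 := hy x
    rw [hpol] at h1
    rcases mul_eq_zero.1 h1 with h2 | h2
    · exact absurd h2 hν
    · exact h2

theorem two_ne_zero_of_odd [Fintype F] (hodd : Odd (Fintype.card F)) : (2 : F) ≠ 0 := by
  intro h2
  haveI : CharP F 2 := by
    refine (CharP.charP_iff_prime_eq_zero Nat.prime_two).2 ?_
    exact_mod_cast h2
  obtain ⟨n, _, hn⟩ := FiniteField.card F 2
  have hn0 : (n : ℕ) ≠ 0 := n.ne_zero
  rw [hn] at hodd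
  have : Even (2 ^ (n : ℕ)) := (Nat.even_pow.2 ⟨even_two, hn0⟩)
  exact (Nat.not_even_iff_odd.2 hodd) this

/-! ## PIECE LS-3 : Lang's theorem for the similarity group of the odd-dimensional form -/

theorem lang_odd [Fintype F] (hodd : Odd (Fintype.card F)) (m : ℕ)
    (hnorm : ∀ (σ : F ≃+* F) (r : ℕ), 0 < r → orderOf (σ : RingAut F) = r →
      ∀ (g : GL (Unit ⊕ (Fin m ⊕ Fin m)) F),
      g ∈ Cfsg.Geo.quadSimilarityGroup (F := F) (Cfsg.quadFormOdd m F) → ∀ c : Fˣ,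
      ((tpow g σ r : GL (Unit ⊕ (Fin m ⊕ Fin m)) F) :
          Matrix (Unit ⊕ (Fin m ⊕ Fin m)) (Unit ⊕ (Fin m ⊕ Fin m)) F)
        = (c : F) • (1 : Matrix (Unit ⊕ (Fin m ⊕ Fin m)) (Unit ⊕ (Fin m ⊕ Fin m)) F) →
      ∃ (B : GL (Unit ⊕ (Fin m ⊕ Fin m)) F) (μ ν : Fˣ),
        (g : Matrix (Unit ⊕ (Fin m ⊕ Fin m)) (Unit ⊕ (Fin m ⊕ Fin m)) F)
            * (B : Matrix (Unit ⊕ (Fin m ⊕ Fin m)) (Unit ⊕ (Fin m ⊕ Fin m)) F).map σ
          = (μ : F) • (B : Matrix (Unit ⊕ (Fin m ⊕ Fin m)) (Unit ⊕ (Fin m ⊕ Fin m)) F) ∧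
        ∀ v : Unit ⊕ (Fin m ⊕ Fin m) → F,
          (ν : F) * Cfsg.quadFormOdd m F
              ((B : Matrix (Unit ⊕ (Fin m ⊕ Fin m)) (Unit ⊕ (Fin m ⊕ Fin m)) F) *ᵥ
                (fun i => σ (v i)))
            = σ ((ν : F) * Cfsg.quadFormOdd m F
              ((B : Matrix (Unit ⊕ (Fin m ⊕ Fin m)) (Unit ⊕ (Fin m ⊕ Fin m)) F) *ᵥ v)))
    (hdesc : ∀ (σ : F ≃+* F) (Q1 : QuadraticForm F (Unit ⊕ (Fin m ⊕ Fin m) → F)),
      (polarBilin Q1).Nondegenerate →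
      (∀ v : Unit ⊕ (Fin m ⊕ Fin m) → F, Q1 (fun i => σ (v i)) = σ (Q1 v)) →
      ∃ (R : GL (Unit ⊕ (Fin m ⊕ Fin m)) F) (c : Fˣ),
        (R : Matrix (Unit ⊕ (Fin m ⊕ Fin m)) (Unit ⊕ (Fin m ⊕ Fin m)) F).map σ
          = (R : Matrix (Unit ⊕ (Fin m ⊕ Fin m)) (Unit ⊕ (Fin m ⊕ Fin m)) F) ∧
        ∀ v : Unit ⊕ (Fin m ⊕ Fin m) → F,
          Q1 ((R : Matrix (Unit ⊕ (Fin m ⊕ Fin m)) (Unit ⊕ (Fin m ⊕ Fin m)) F) *ᵥ v)
            = (c : F) * Cfsg.quadFormOdd m F v)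
    (σ : F ≃+* F) (r : ℕ) (hr0 : 0 < r) (hσ : orderOf (σ : RingAut F) = r)
    (g : GL (Unit ⊕ (Fin m ⊕ Fin m)) F)
    (hg : g ∈ Cfsg.Geo.quadSimilarityGroup (F := F) (Cfsg.quadFormOdd m F)) (c : Fˣ)
    (hN : ((tpow g σ r : GL (Unit ⊕ (Fin m ⊕ Fin m)) F) :
          Matrix (Unit ⊕ (Fin m ⊕ Fin m)) (Unit ⊕ (Fin m ⊕ Fin m)) F)
        = (c : F) • (1 : Matrix (Unit ⊕ (Fin m ⊕ Fin m)) (Unit ⊕ (Fin m ⊕ Fin m)) F)) :
    ∃ (h : GL (Unit ⊕ (Fin m ⊕ Fin m)) F) (μ : Fˣ),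
      h ∈ Cfsg.Geo.quadSimilarityGroup (F := F) (Cfsg.quadFormOdd m F) ∧
      (g : Matrix (Unit ⊕ (Fin m ⊕ Fin m)) (Unit ⊕ (Fin m ⊕ Fin m)) F)
          * (h : Matrix (Unit ⊕ (Fin m ⊕ Fin m)) (Unit ⊕ (Fin m ⊕ Fin m)) F).map σ
        = (μ : F) • (h : Matrix (Unit ⊕ (Fin m ⊕ Fin m)) (Unit ⊕ (Fin m ⊕ Fin m)) F) := by
  classical
  have h2 : (2 : F) ≠ 0 := two_ne_zero_of_odd hodd
  obtain ⟨B, μ, ν, hgB, hinv⟩ := hnorm σ r hr0 hσ g hg c hN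
  obtain ⟨Q1, hQ1⟩ : ∃ Q1 : QuadraticForm F (Unit ⊕ (Fin m ⊕ Fin m) → F),
      Q1 = twForm (QOdd m F)
        (B : Matrix (Unit ⊕ (Fin m ⊕ Fin m)) (Unit ⊕ (Fin m ⊕ Fin m)) F) (ν : F) := ⟨_, rfl⟩
  have hQ1app : ∀ v, Q1 v = (ν : F) * Cfsg.quadFormOdd m F
      ((B : Matrix (Unit ⊕ (Fin m ⊕ Fin m)) (Unit ⊕ (Fin m ⊕ Fin m)) F) *ᵥ v) := by
    intro v
    rw [hQ1, twForm_apply, coe_QOdd]
  have hBdet : IsUnit (B : Matrix (Unit ⊕ (Fin m ⊕ Fin m)) (Unit ⊕ (Fin m ⊕ Fin m)) F).det := by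
    rw [← Matrix.isUnit_iff_isUnit_det]
    exact ⟨B, rfl⟩
  have hQ1nd : (polarBilin Q1).Nondegenerate := by
    rw [hQ1]
    exact twForm_nondeg _ (Cfsg.Agent.Lib.Helper51.OTransportOdd.QOdd_nondeg h2 m) _ hBdet _ ν.ne_zero
  have hQ1σ : ∀ v : Unit ⊕ (Fin m ⊕ Fin m) → F, Q1 (fun i => σ (v i)) = σ (Q1 v) := by
    intro v
    rw [hQ1app, hQ1app]
    exact hinv v
  obtain ⟨R, c₁, hRσ, hR⟩ := hdesc σ Q1 hQ1nd hQ1σ
  refine ⟨B * R, μ, ⟨ν⁻¹ * c₁, fun v => ?_⟩, ?_⟩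
  · have h1 := hR v
    rw [hQ1app, Matrix.mulVec_mulVec] at h1
    rw [Matrix.GeneralLinearGroup.coe_mul, Units.val_mul, Units.val_inv_eq_inv_val, mul_assoc,
      ← h1, ← mul_assoc, inv_mul_cancel₀ ν.ne_zero, one_mul]
  · rw [Matrix.GeneralLinearGroup.coe_mul, Matrix.map_mul, ← Matrix.mul_assoc, hgB, hRσ,
      Matrix.smul_mul]

/-- Lang's theorem for the similarity group of the odd-dimensional form, with only the descent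
to the fixed field as a hypothesis. -/
theorem lang_odd_of_desc [Fintype F] (hodd : Odd (Fintype.card F)) (m : ℕ)
    (hdesc : ∀ (σ : F ≃+* F) (Q1 : QuadraticForm F (Unit ⊕ (Fin m ⊕ Fin m) → F)),
      (polarBilin Q1).Nondegenerate →
      (∀ v : Unit ⊕ (Fin m ⊕ Fin m) → F, Q1 (fun i => σ (v i)) = σ (Q1 v)) →
      ∃ (R : GL (Unit ⊕ (Fin m ⊕ Fin m)) F) (c : Fˣ),
        (R : Matrix (Unit ⊕ (Fin m ⊕ Fin m)) (Unit ⊕ (Fin m ⊕ Fin m)) F).map σ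
          = (R : Matrix (Unit ⊕ (Fin m ⊕ Fin m)) (Unit ⊕ (Fin m ⊕ Fin m)) F) ∧
        ∀ v : Unit ⊕ (Fin m ⊕ Fin m) → F,
          Q1 ((R : Matrix (Unit ⊕ (Fin m ⊕ Fin m)) (Unit ⊕ (Fin m ⊕ Fin m)) F) *ᵥ v)
            = (c : F) * Cfsg.quadFormOdd m F v)
    (σ : F ≃+* F) (r : ℕ) (hr0 : 0 < r) (hσ : orderOf (σ : RingAut F) = r)
    (g : GL (Unit ⊕ (Fin m ⊕ Fin m)) F)
    (hg : g ∈ Cfsg.Geo.quadSimilarityGroup (F := F) (Cfsg.quadFormOdd m F)) (c : Fˣ)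
    (hN : ((tpow g σ r : GL (Unit ⊕ (Fin m ⊕ Fin m)) F) :
          Matrix (Unit ⊕ (Fin m ⊕ Fin m)) (Unit ⊕ (Fin m ⊕ Fin m)) F)
        = (c : F) • (1 : Matrix (Unit ⊕ (Fin m ⊕ Fin m)) (Unit ⊕ (Fin m ⊕ Fin m)) F)) :
    ∃ (h : GL (Unit ⊕ (Fin m ⊕ Fin m)) F) (μ : Fˣ),
      h ∈ Cfsg.Geo.quadSimilarityGroup (F := F) (Cfsg.quadFormOdd m F) ∧
      (g : Matrix (Unit ⊕ (Fin m ⊕ Fin m)) (Unit ⊕ (Fin m ⊕ Fin m)) F)
          * (h : Matrix (Unit ⊕ (Fin m ⊕ Fin m)) (Unit ⊕ (Fin m ⊕ Fin m)) F).map σ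
        = (μ : F) • (h : Matrix (Unit ⊕ (Fin m ⊕ Fin m)) (Unit ⊕ (Fin m ⊕ Fin m)) F) := by
  classical
  refine lang_odd hodd m ?_ hdesc σ r hr0 hσ g hg c hN
  intro σ' r' hr0' hσ' g' hg' c' hN'
  have hv : ∃ v, QOdd m F v ≠ 0 := by
    refine ⟨Pi.single (Sum.inl ()) 1, ?_⟩
    rw [QOdd_apply]
    simp
  have hQσ : ∀ v : Unit ⊕ (Fin m ⊕ Fin m) → F, QOdd m F (fun i => σ' (v i)) = σ' (QOdd m F v) := by
    intro v
    rw [QOdd_apply, QOdd_apply]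
    simp only [map_add, map_pow, map_sum, map_mul]
  have hg'' : g' ∈ Cfsg.Geo.quadSimilarityGroup (F := F) ⇑(QOdd m F) := by
    rw [coe_QOdd]
    exact hg'
  obtain ⟨B, μ, ν, h1, h2⟩ := lang_norm (QOdd m F) hv σ' hQσ r' hr0' hσ' g' hg'' c' hN'
  refine ⟨B, μ, ν, h1, ?_⟩
  intro v
  have := h2 v
  rw [coe_QOdd] at this
  exact this

end Cfsg.Agent.Lib.Helper53.LS
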