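import Mathlib

/-!
# An index computation in finite cyclic groups (helper53)

`G` finite cyclic of order `N`, `m ∣ N`: the subgroup generated by the `n`-th powers and the
elements killed by `m` has index `gcd n (N / m)`.
-/

set_option autoImplicit false

namespace Cfsg.Agent.Lib.Helper53.Cyc

variable {G : Type*} [CommGroup G] [IsCyclic G] [Finite G]

theorem card_pow_ker (m : ℕ) (hm : m ∣ Nat.card G) (hm0 : 0 < m) :
    Nat.card (powMonoidHom m : G →* G).ker = m := by
  have h1 := IsCyclic.index_powMonoidHom_ker G m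
  have h2 := Subgroup.card_mul_index (powMonoidHom m : G →* G).ker
  rw [h1, Nat.gcd_eq_right hm] at h2
  obtain ⟨k, hk⟩ := hm
  have hk0 : 0 < k := by
    rcases Nat.eq_zero_or_pos k with rfl | h
    · rw [mul_zero] at hk
      exact absurd hk Nat.card_pos.ne'
    · exact h
  rw [hk, Nat.mul_div_cancel_left k hm0] at h2
  exact Nat.eq_of_mul_eq_mul_right hk0 (by rw [h2, mul_comm])

theorem pow_ker_eq_range (m : ℕ) (hm : m ∣ Nat.card G) (hm0 : 0 < m) :
    (powMonoidHom m : G →* G).ker = (powMonoidHom (Nat.card G / m) : G →* G).range := by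
  symm
  apply Subgroup.eq_of_le_of_card_ge
  · rintro _ ⟨v, rfl⟩
    rw [MonoidHom.mem_ker]
    show (v ^ (Nat.card G / m)) ^ m = 1
    rw [← pow_mul, Nat.div_mul_cancel hm, pow_card_eq_one']
  · rw [card_pow_ker m hm hm0, IsCyclic.card_powMonoidHom_range,
      Nat.gcd_eq_right (Nat.div_dvd_of_dvd hm)]
    obtain ⟨k, hk⟩ := hm
    have hk0 : 0 < k := by
      rcases Nat.eq_zero_or_pos k with rfl | h
      · rw [mul_zero] at hk
        exact absurd hk Nat.card_pos.ne'
      · exact h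
    rw [hk, Nat.mul_div_cancel_left k hm0, Nat.mul_div_cancel m hk0]

omit [IsCyclic G] [Finite G] in
theorem range_sup_range (a b : ℕ) :
    (powMonoidHom a : G →* G).range ⊔ (powMonoidHom b : G →* G).range =
      (powMonoidHom (Nat.gcd a b) : G →* G).range := by
  apply le_antisymm
  · rw [sup_le_iff]
    constructor
    · rintro _ ⟨v, rfl⟩
      obtain ⟨k, hk⟩ := Nat.gcd_dvd_left a b
      refine ⟨v ^ k, ?_⟩
      show (v ^ k) ^ (Nat.gcd a b) = v ^ a
      rw [← pow_mul, mul_comm, ← hk]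
    · rintro _ ⟨v, rfl⟩
      obtain ⟨k, hk⟩ := Nat.gcd_dvd_right a b
      refine ⟨v ^ k, ?_⟩
      show (v ^ k) ^ (Nat.gcd a b) = v ^ b
      rw [← pow_mul, mul_comm, ← hk]
  · rintro _ ⟨v, rfl⟩
    have h : v ^ (Nat.gcd a b) = (v ^ (Nat.gcdA a b)) ^ a * (v ^ (Nat.gcdB a b)) ^ b := by
      rw [← zpow_natCast v (Nat.gcd a b), Nat.gcd_eq_gcd_ab, zpow_add, mul_comm (a : ℤ),
        mul_comm (b : ℤ), zpow_mul, zpow_mul, zpow_natCast, zpow_natCast]
    show v ^ (Nat.gcd a b) ∈ _
    rw [h]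
    exact Subgroup.mul_mem_sup ⟨_, rfl⟩ ⟨_, rfl⟩

/-- the index of `(n-th powers) ⊔ (elements killed by m)` -/
theorem index_range_sup_ker (n m : ℕ) (hm : m ∣ Nat.card G) (hm0 : 0 < m) :
    ((powMonoidHom n : G →* G).range ⊔ (powMonoidHom m : G →* G).ker).index =
      Nat.gcd n (Nat.card G / m) := by
  rw [pow_ker_eq_range m hm hm0, range_sup_range, IsCyclic.index_powMonoidHom_range]
  apply Nat.gcd_eq_right
  exact (Nat.gcd_dvd_right _ _).trans (Nat.div_dvd_of_dvd hm)

end Cfsg.Agent.Lib.Helper53.Cyc
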