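import Mathlib

/-!
# The fixed field of an automorphism of a finite field (helper53)

`|F| = p^f`, `σ` an automorphism of order `r`:
* `fixed_card`: `r ∣ f` and the fixed field has `p^(f/r)` elements;
* `exists_embedding`: any field `F₀` with `p^(f/r)` elements embeds in `F` with image the fixed
  points of `σ`.
-/

set_option autoImplicit false

namespace Cfsg.Agent.Lib.Helper53.Fix

open Module

variable {F : Type*} [Field F] [Fintype F]

theorem finite_ringAut : Finite (F ≃+* F) :=
  Finite.of_injective (fun e : F ≃+* F => (e : F → F)) DFunLike.coe_injective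

omit [Fintype F] in
theorem mem_fixed_iff (σ : F ≃+* F) (a : F) :
    a ∈ FixedPoints.subfield (Subgroup.zpowers σ) F ↔ σ a = a := by
  constructor
  · intro h
    exact h ⟨σ, Subgroup.mem_zpowers σ⟩
  · intro h τ
    have h1 : Subgroup.zpowers σ ≤ MulAction.stabilizer (F ≃+* F) a := by
      rw [Subgroup.zpowers_le]
      exact h
    exact h1 τ.2

theorem fixed_card {p f : ℕ} [Fact p.Prime] (hF : Fintype.card F = p ^ f) (σ : F ≃+* F) {r : ℕ}
    (hr : orderOf σ = r) :
    r ∣ f ∧ Nat.card (FixedPoints.subfield (Subgroup.zpowers σ) F) = p ^ (f / r) := by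
  classical
  haveI := finite_ringAut (F := F)
  have hp : p.Prime := Fact.out
  have hr0 : 0 < r := by
    rw [← hr]
    exact orderOf_pos σ
  let _ : Fintype (Subgroup.zpowers σ) := Fintype.ofFinite _
  let _ : Fintype (FixedPoints.subfield (Subgroup.zpowers σ) F) := Fintype.ofFinite _
  have h1 : finrank (FixedPoints.subfield (Subgroup.zpowers σ) F) F = r := by
    rw [FixedPoints.finrank_eq_card (Subgroup.zpowers σ) F, ← Nat.card_eq_fintype_card,
      Nat.card_zpowers, hr]
  have h2 := Module.card_eq_pow_finrank (K := FixedPoints.subfield (Subgroup.zpowers σ) F) (V := F)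
  rw [h1, hF] at h2
  obtain ⟨p', -, m, hp', hm⟩ := FiniteField.card' (FixedPoints.subfield (Subgroup.zpowers σ) F)
  rw [hm, ← pow_mul] at h2
  have hpp : p' = p := by
    have hd : p' ∣ p ^ f := by
      rw [h2]
      exact dvd_pow_self _ (Nat.mul_ne_zero m.ne_zero hr0.ne')
    exact (Nat.prime_dvd_prime_iff_eq hp' hp).1 (hp'.dvd_of_dvd_pow hd)
  subst hpp
  have h3 : f = (m : ℕ) * r := Nat.pow_right_injective hp'.two_le h2
  refine ⟨⟨m, by rw [h3, mul_comm]⟩, ?_⟩
  rw [Nat.card_eq_fintype_card, hm, h3, Nat.mul_div_cancel _ hr0]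

theorem exists_embedding {p f : ℕ} [Fact p.Prime] (hF : Fintype.card F = p ^ f) (σ : F ≃+* F)
    {r : ℕ} (hr : orderOf σ = r) (F₀ : Type*) [Field F₀] [Fintype F₀]
    (hF₀ : Fintype.card F₀ = p ^ (f / r)) :
    ∃ j : F₀ →+* F, ∀ a : F, σ a = a ↔ a ∈ Set.range j := by
  classical
  haveI := finite_ringAut (F := F)
  let _ : Fintype (FixedPoints.subfield (Subgroup.zpowers σ) F) := Fintype.ofFinite _
  have hc : Fintype.card F₀ = Fintype.card (FixedPoints.subfield (Subgroup.zpowers σ) F) := by
    rw [hF₀, ← Nat.card_eq_fintype_card, (fixed_card hF σ hr).2]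
  let e : F₀ ≃+* (FixedPoints.subfield (Subgroup.zpowers σ) F) := FiniteField.ringEquivOfCardEq hc
  refine ⟨(FixedPoints.subfield (Subgroup.zpowers σ) F).subtype.comp (e : F₀ →+* _), ?_⟩
  intro a
  rw [← mem_fixed_iff]
  constructor
  · intro ha
    refine ⟨e.symm ⟨a, ha⟩, ?_⟩
    simp
  · rintro ⟨b, rfl⟩
    exact (e b).2

end Cfsg.Agent.Lib.Helper53.Fix
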