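import Mathlib
import Cfsg.Agent.Lib.Helper53.AutPSLConj
import Cfsg.Agent.Lib.Helper53.SplitCount
import Cfsg.Agent.Lib.Helper53.CycIndex
import Cfsg.Agent.Lib.Helper53.FixField

/-!
# Centralizers of field automorphisms of `PSL_n(F)` in `Inndiag` (helper53)

`σ` an automorphism of the finite field `F`, `j : F₀ →+* F` an embedding whose image is the
fixed field of `σ`.
* `Ctil_Phi`: the matrices commuting with `Phi σ` modulo scalars are `Z · GL_n(F₀)`;
* `det_Ctil_Phi`: their determinants;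
* `centEquiv`: `Inndiag ⊓ C(x) ≃* PGL_n(F₀)` for `x` an `Inndiag`-conjugate of `Phi σ`;
* `field_main`: the statement S2698 relative to `Decomp`.
-/

set_option autoImplicit false

namespace Cfsg.Agent.Lib.Helper53.AutPSL

open Matrix

variable {n : ℕ} {F : Type*} [Field F]

theorem map_pow_eq (σ : F ≃+* F) (A : Matrix (Fin n) (Fin n) F) (c : F)
    (h : A.map σ = c • A) (k : ℕ) : A.map (σ ^ k : F ≃+* F) = H90.nrm σ k c • A := by
  induction k with
  | zero =>
    rw [H90.nrm_zero, one_smul]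
    ext i j
    rfl
  | succ k ih =>
    have e : A.map (σ ^ (k + 1) : F ≃+* F) = (A.map (σ ^ k : F ≃+* F)).map σ := by
      ext i j
      simp only [Matrix.map_apply]
      exact H90.pow_succ_apply σ k _
    rw [e, ih, H90.nrm_succ]
    ext i j
    have := congrFun (congrFun h i) j
    simp only [Matrix.map_apply, Matrix.smul_apply, smul_eq_mul] at this ⊢
    rw [map_mul, this]
    ring

theorem mem_Ctil_iota_conj (y : MulAut (ProjectiveSpecialLinearGroup (Fin n) F))
    (g A : GL (Fin n) F) :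
    A ∈ Ctil (iota g * y * (iota g)⁻¹) ↔ g⁻¹ * A * g ∈ Ctil y := by
  rw [mem_Ctil, mem_Ctil, map_mul, map_mul, map_inv]
  constructor
  · intro h
    have e : y * ((iota g)⁻¹ * iota A * iota g) =
        (iota g)⁻¹ * (iota g * y * (iota g)⁻¹ * iota A) * iota g := by group
    rw [e, h]
    group
  · intro h
    have e : iota g * y * (iota g)⁻¹ * iota A =
        iota g * (y * ((iota g)⁻¹ * iota A * iota g)) * (iota g)⁻¹ := by group
    rw [e, h]
    group

theorem det_Ctil_conj (y : MulAut (ProjectiveSpecialLinearGroup (Fin n) F)) (g : GL (Fin n) F) :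
    (Ctil (iota g * y * (iota g)⁻¹)).map (GeneralLinearGroup.det : GL (Fin n) F →* Fˣ) =
      (Ctil y).map (GeneralLinearGroup.det : GL (Fin n) F →* Fˣ) := by
  ext u
  constructor
  · rintro ⟨A, hA, rfl⟩
    refine ⟨g⁻¹ * A * g, (mem_Ctil_iota_conj y g A).1 hA, ?_⟩
    rw [map_mul, map_mul, map_inv, mul_comm, ← mul_assoc, mul_inv_cancel, one_mul]
  · rintro ⟨A, hA, rfl⟩
    refine ⟨g * A * g⁻¹, (mem_Ctil_iota_conj y g _).2 ?_, ?_⟩
    · have : g⁻¹ * (g * A * g⁻¹) * g = A := by group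
      rw [this]
      exact hA
    · rw [map_mul, map_mul, map_inv, mul_comm, ← mul_assoc, inv_mul_cancel, one_mul]

section Field

variable {F₀ : Type*} [Field F₀]

theorem map_map_eq (σ : F ≃+* F) (j : F₀ →+* F) (hj : ∀ a : F, σ a = a ↔ a ∈ Set.range j)
    (B : GL (Fin n) F₀) : GeneralLinearGroup.map (σ : F →+* F) (GeneralLinearGroup.map j B) =
      GeneralLinearGroup.map j B := by
  apply Units.ext
  ext a b
  exact (hj _).2 ⟨B.1 a b, rfl⟩

theorem map_mem_Ctil (σ : F ≃+* F) (j : F₀ →+* F) (hj : ∀ a : F, σ a = a ↔ a ∈ Set.range j)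
    (B : GL (Fin n) F₀) : GeneralLinearGroup.map j B ∈ Ctil (Phi σ : MulAut
      (ProjectiveSpecialLinearGroup (Fin n) F)) := by
  rw [mem_Ctil, Phi_mul_iota, map_map_eq σ j hj]

theorem center_le_Ctil (x : MulAut (ProjectiveSpecialLinearGroup (Fin n) F)) :
    Subgroup.center (GL (Fin n) F) ≤ Ctil x := by
  intro z hz
  rw [mem_Ctil, iota_eq_one_of_center z hz, mul_one, one_mul]

/-- the matrices commuting with `Phi σ` modulo scalars -/
theorem Ctil_Phi [Finite F] (hn : 2 ≤ n) (σ : F ≃+* F) (j : F₀ →+* F)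
    (hj : ∀ a : F, σ a = a ↔ a ∈ Set.range j) :
    Ctil (Phi σ : MulAut (ProjectiveSpecialLinearGroup (Fin n) F)) =
      Subgroup.center (GL (Fin n) F) ⊔ (GeneralLinearGroup.map j : GL (Fin n) F₀ →* _).range := by
  apply le_antisymm
  swap
  · rw [sup_le_iff]
    refine ⟨center_le_Ctil _, ?_⟩
    rintro _ ⟨B, rfl⟩
    exact map_mem_Ctil σ j hj B
  intro A hA
  rw [mem_Ctil, Phi_mul_iota] at hA
  have h1 : iota (A⁻¹ * GeneralLinearGroup.map (σ : F →+* F) A) = 1 := by
    rw [map_mul, map_inv, inv_mul_eq_one]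
    exact (mul_right_cancel hA).symm
  have hcen := center_of_iota_eq_one hn _ h1
  rw [GeneralLinearGroup.center_eq_range_scalar] at hcen
  obtain ⟨c, hc⟩ := hcen
  -- `σ(A) = c • A`
  have hσA : (A : Matrix (Fin n) (Fin n) F).map σ = (c : F) • (A : Matrix (Fin n) (Fin n) F) := by
    have e1 : GeneralLinearGroup.map (σ : F →+* F) A = A * GeneralLinearGroup.scalar (Fin n) c := by
      rw [hc, mul_inv_cancel_left]
    have e2 := congrArg (fun u : GL (Fin n) F => (u : Matrix (Fin n) (Fin n) F)) e1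
    have e3 : ((GeneralLinearGroup.scalar (Fin n) c : GL (Fin n) F) : Matrix (Fin n) (Fin n) F) =
        (c : F) • (1 : Matrix (Fin n) (Fin n) F) := by
      ext i j
      simp [Matrix.one_apply, Matrix.diagonal_apply]
    simp only [Units.val_mul] at e2
    rw [e3, Matrix.mul_smul, Matrix.mul_one] at e2
    exact e2
  -- the norm of `c` is one
  have hr0 : 0 < orderOf σ := by
    have hfin : Finite (F ≃+* F) :=
      Finite.of_injective (fun e : F ≃+* F => (e : F → F)) DFunLike.coe_injective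
    exact orderOf_pos σ
  have hN : H90.nrm σ (orderOf σ) (c : F) = 1 := by
    have e := map_pow_eq σ _ _ hσA (orderOf σ)
    rw [pow_orderOf_eq_one] at e
    obtain ⟨a, b, hab⟩ : ∃ a b, (A : Matrix (Fin n) (Fin n) F) a b ≠ 0 := by
      by_contra hcon
      push Not at hcon
      apply gl_det_ne_zero A
      have : (A : Matrix (Fin n) (Fin n) F) = 0 := by
        ext a b
        exact hcon a b
      have hne : Nonempty (Fin n) := ⟨⟨0, by omega⟩⟩
      rw [this, Matrix.det_zero]
    have e1 := congrFun (congrFun e a) b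
    simp only [Matrix.map_apply, Matrix.smul_apply, smul_eq_mul] at e1
    have e2 : (H90.nrm σ (orderOf σ) (c : F) - 1) * (A : Matrix (Fin n) (Fin n) F) a b = 0 := by
      rw [sub_mul, one_mul, ← e1]
      exact sub_self _
    rcases mul_eq_zero.1 e2 with h3 | h3
    · exact sub_eq_zero.1 h3
    · exact absurd h3 hab
  obtain ⟨b, hb0, hb⟩ := H90.exists_fixed_scalar σ (orderOf σ) hr0 rfl (c : F) hN
  -- `b • A` has entries in the fixed field
  have hfix : ∀ i k, σ (b * (A : Matrix (Fin n) (Fin n) F) i k) =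
      b * (A : Matrix (Fin n) (Fin n) F) i k := by
    intro i k
    have := congrFun (congrFun hσA i) k
    simp only [Matrix.map_apply, Matrix.smul_apply, smul_eq_mul] at this
    rw [map_mul, this, ← mul_assoc, mul_comm (σ b), hb]
  choose B₀ hB₀ using fun i k => (hj _).1 (hfix i k)
  have hB₀map : (Matrix.of B₀).map j = b • (A : Matrix (Fin n) (Fin n) F) := by
    ext i k
    simp [hB₀]
  have hB₀det : (Matrix.of B₀).det ≠ 0 := by
    intro h0
    have h2 : ((Matrix.of B₀).map j).det = 0 := by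
      have := RingHom.map_det j (Matrix.of B₀)
      rw [h0, map_zero] at this
      exact this.symm
    rw [hB₀map, Matrix.det_smul] at h2
    rcases mul_eq_zero.1 h2 with h3 | h3
    · exact hb0 (pow_eq_zero_iff (by omega : n ≠ 0) |>.1 (by simpa using h3))
    · exact gl_det_ne_zero A h3
  let Bg : GL (Fin n) F₀ := GeneralLinearGroup.mkOfDetNeZero (Matrix.of B₀) hB₀det
  have hA' : A = GeneralLinearGroup.scalar (Fin n) (Units.mk0 b⁻¹ (inv_ne_zero hb0)) *
      GeneralLinearGroup.map j Bg := by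
    apply Units.ext
    have e4 : ((GeneralLinearGroup.scalar (Fin n) (Units.mk0 b⁻¹ (inv_ne_zero hb0)) :
        GL (Fin n) F) : Matrix (Fin n) (Fin n) F) = b⁻¹ • (1 : Matrix (Fin n) (Fin n) F) := by
      ext i k
      simp [Matrix.one_apply, Matrix.diagonal_apply]
    have e5 : ((GeneralLinearGroup.map j Bg : GL (Fin n) F) : Matrix (Fin n) (Fin n) F) =
        (Matrix.of B₀).map j := rfl
    rw [Units.val_mul, e4, e5, hB₀map, Matrix.smul_mul, Matrix.one_mul, smul_smul,
      inv_mul_cancel₀ hb0, one_smul]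
  rw [hA']
  apply Subgroup.mul_mem_sup
  · rw [GeneralLinearGroup.center_eq_range_scalar]
    exact ⟨_, rfl⟩
  · exact ⟨Bg, rfl⟩

theorem det_center :
    (Subgroup.center (GL (Fin n) F)).map (GeneralLinearGroup.det : GL (Fin n) F →* Fˣ) =
      (powMonoidHom n : Fˣ →* Fˣ).range := by
  rw [GeneralLinearGroup.center_eq_range_scalar]
  ext u
  constructor
  · rintro ⟨_, ⟨v, rfl⟩, rfl⟩
    refine ⟨v, ?_⟩
    apply Units.ext
    simp [GeneralLinearGroup.val_det_apply, GeneralLinearGroup.scalar]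
  · rintro ⟨v, rfl⟩
    refine ⟨GeneralLinearGroup.scalar (Fin n) v, ⟨v, rfl⟩, ?_⟩
    apply Units.ext
    simp [GeneralLinearGroup.val_det_apply, GeneralLinearGroup.scalar]

theorem det_range_map (hn : 0 < n) (j : F₀ →+* F) :
    ((GeneralLinearGroup.map j : GL (Fin n) F₀ →* _).range).map
        (GeneralLinearGroup.det : GL (Fin n) F →* Fˣ) =
      (Units.map (j : F₀ →* F)).range := by
  ext u
  constructor
  · rintro ⟨_, ⟨B, rfl⟩, rfl⟩
    exact ⟨GeneralLinearGroup.det B, (GeneralLinearGroup.map_det j B).symm⟩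
  · rintro ⟨v, rfl⟩
    refine ⟨GeneralLinearGroup.map j (dgU ⟨0, hn⟩ v), ⟨_, rfl⟩, ?_⟩
    rw [GeneralLinearGroup.map_det, det_dgU]

theorem det_Ctil_Phi [Finite F] (hn : 2 ≤ n) (σ : F ≃+* F) (j : F₀ →+* F)
    (hj : ∀ a : F, σ a = a ↔ a ∈ Set.range j) :
    (Ctil (Phi σ : MulAut (ProjectiveSpecialLinearGroup (Fin n) F))).map
        (GeneralLinearGroup.det : GL (Fin n) F →* Fˣ) =
      (powMonoidHom n : Fˣ →* Fˣ).range ⊔ (Units.map (j : F₀ →* F)).range := by
  rw [Ctil_Phi hn σ j hj, Subgroup.map_sup, det_center, det_range_map (by omega)]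

theorem card_range_units_map [Fintype F₀] (j : F₀ →+* F) :
    Nat.card (Units.map (j : F₀ →* F)).range = Fintype.card F₀ - 1 := by
  have hinj : Function.Injective (Units.map (j : F₀ →* F)) :=
    Units.map_injective (f := (j : F₀ →* F)) j.injective
  rw [← Nat.card_congr (MonoidHom.ofInjective hinj).toEquiv, Nat.card_units,
    Nat.card_eq_fintype_card]

theorem card_sub_one_dvd [Fintype F] [Fintype F₀] (j : F₀ →+* F) :
    Fintype.card F₀ - 1 ∣ Nat.card Fˣ := by
  rw [← card_range_units_map j]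
  exact Subgroup.card_subgroup_dvd_card _

theorem range_units_map [Fintype F] [Fintype F₀] (j : F₀ →+* F) :
    (Units.map (j : F₀ →* F)).range =
      (powMonoidHom (Fintype.card F₀ - 1) : Fˣ →* Fˣ).ker := by
  classical
  have hdvd : Fintype.card F₀ - 1 ∣ Nat.card Fˣ := card_sub_one_dvd j
  have hpos : 0 < Fintype.card F₀ - 1 := by
    have := Fintype.one_lt_card (α := F₀)
    omega
  apply Subgroup.eq_of_le_of_card_ge
  · rintro _ ⟨v, rfl⟩
    rw [MonoidHom.mem_ker]
    show (Units.map (j : F₀ →* F) v) ^ (Fintype.card F₀ - 1) = 1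
    rw [← map_pow]
    have : v ^ (Fintype.card F₀ - 1) = 1 := by
      have h := pow_card_eq_one' (G := F₀ˣ) (x := v)
      rwa [Nat.card_units, Nat.card_eq_fintype_card] at h
    rw [this, map_one]
  · rw [Cyc.card_pow_ker _ hdvd hpos, card_range_units_map j]

/-- the map `GL_n(F₀) → Aut(PSL_n F)`, `B ↦ iota (g * j(B) * g⁻¹)` -/
noncomputable def Theta (g : GL (Fin n) F) (j : F₀ →+* F) :
    GL (Fin n) F₀ →* MulAut (ProjectiveSpecialLinearGroup (Fin n) F) :=
  iota.comp (MonoidHom.mk' (fun B : GL (Fin n) F₀ => g * GeneralLinearGroup.map j B * g⁻¹) (by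
    intro a b
    rw [map_mul]
    group))

theorem Theta_apply (g : GL (Fin n) F) (j : F₀ →+* F) (B : GL (Fin n) F₀) :
    Theta g j B = iota (g * GeneralLinearGroup.map j B * g⁻¹) := rfl

theorem Theta_range [Finite F] (hn : 2 ≤ n) (σ : F ≃+* F) (j : F₀ →+* F)
    (hj : ∀ a : F, σ a = a ↔ a ∈ Set.range j) (g : GL (Fin n) F) :
    (Theta g j).range =
      Cfsg.inndiagPSL n F ⊓ Subgroup.centralizer {iota g * Phi σ * (iota g)⁻¹} := by
  apply le_antisymm
  · rintro _ ⟨B, rfl⟩
    refine ⟨(mem_inndiag _).2 ⟨_, rfl⟩, ?_⟩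
    show g * GeneralLinearGroup.map j B * g⁻¹ ∈ Ctil (iota g * Phi σ * (iota g)⁻¹)
    rw [mem_Ctil_iota_conj]
    have : g⁻¹ * (g * GeneralLinearGroup.map j B * g⁻¹) * g = GeneralLinearGroup.map j B := by
      group
    rw [this]
    exact map_mem_Ctil σ j hj B
  · rintro β ⟨hβD, hβC⟩
    obtain ⟨A, rfl⟩ := (mem_inndiag β).1 hβD
    have hA : A ∈ Ctil (iota g * Phi σ * (iota g)⁻¹) := hβC
    rw [mem_Ctil_iota_conj, Ctil_Phi hn σ j hj] at hA
    have hA2 : g⁻¹ * A * g ∈ ((Subgroup.center (GL (Fin n) F) ⊔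
        (GeneralLinearGroup.map j : GL (Fin n) F₀ →* _).range : Subgroup (GL (Fin n) F)) :
          Set (GL (Fin n) F)) := hA
    rw [Subgroup.normal_mul] at hA2
    obtain ⟨z, hz, w, hw, e⟩ := Set.mem_mul.1 hA2
    obtain ⟨B, hB⟩ := MonoidHom.mem_range.1 hw
    refine ⟨B, ?_⟩
    rw [Theta_apply]
    have hA' : A = g * (z * GeneralLinearGroup.map j B) * g⁻¹ := by
      rw [hB, e]
      group
    rw [hA']
    simp only [map_mul]
    rw [iota_eq_one_of_center z hz, one_mul]

theorem Theta_ker (hn : 2 ≤ n) (g : GL (Fin n) F) (j : F₀ →+* F) :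
    (Theta g j).ker = Subgroup.center (GL (Fin n) F₀) := by
  ext B
  rw [MonoidHom.mem_ker, Theta_apply, iota_eq_one_iff hn]
  have h1 : g * GeneralLinearGroup.map j B * g⁻¹ ∈ Subgroup.center (GL (Fin n) F) ↔
      GeneralLinearGroup.map j B ∈ Subgroup.center (GL (Fin n) F) := by
    constructor
    · intro h
      have h2 := (inferInstance : (Subgroup.center (GL (Fin n) F)).Normal).conj_mem _ h g⁻¹
      have e : g⁻¹ * (g * GeneralLinearGroup.map j B * g⁻¹) * g⁻¹⁻¹ =
          GeneralLinearGroup.map j B := by group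
      rwa [e] at h2
    · intro h
      exact (inferInstance : (Subgroup.center (GL (Fin n) F)).Normal).conj_mem _ h g
  rw [h1]
  constructor
  · intro h
    rw [GeneralLinearGroup.mem_center_iff_val_mem_range_scalar] at h ⊢
    obtain ⟨c, hc⟩ := h
    have hc' : ∀ a b, j ((B : Matrix (Fin n) (Fin n) F₀) a b) = if a = b then c else 0 := by
      intro a b
      have := congrFun (congrFun hc a) b
      rw [Matrix.scalar_apply, Matrix.diagonal_apply] at this
      exact this.symm
    refine ⟨(B : Matrix (Fin n) (Fin n) F₀) ⟨0, by omega⟩ ⟨0, by omega⟩, ?_⟩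
    ext a b
    rw [Matrix.scalar_apply, Matrix.diagonal_apply]
    apply j.injective
    rw [hc' a b]
    by_cases hab : a = b
    · rw [if_pos hab, if_pos hab, hc', if_pos rfl]
    · rw [if_neg hab, if_neg hab, map_zero]
  · intro h
    exact GeneralLinearGroup.map_center_le j h

theorem nonempty_centEquiv [Finite F] (hn : 2 ≤ n) (σ : F ≃+* F) (j : F₀ →+* F)
    (hj : ∀ a : F, σ a = a ↔ a ∈ Set.range j) (g : GL (Fin n) F) :
    Nonempty (↥(Cfsg.inndiagPSL n F ⊓ Subgroup.centralizer {iota g * Phi σ * (iota g)⁻¹}) ≃*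
      Matrix.ProjGenLinGroup (Fin n) F₀) := by
  have e1 := MulEquiv.subgroupCongr (Theta_range hn σ j hj g).symm
  have e2 := QuotientGroup.quotientKerEquivRange (Theta g j)
  have e3 : GL (Fin n) F₀ ⧸ (Theta g j).ker ≃*
      GL (Fin n) F₀ ⧸ (ProjGenLinGroup.mk (n := Fin n) (R := F₀)).ker :=
    QuotientGroup.quotientMulEquivOfEq (by rw [Theta_ker hn, ProjGenLinGroup.ker_mk])
  have e4 := QuotientGroup.quotientKerEquivOfSurjective
    (ProjGenLinGroup.mk (n := Fin n) (R := F₀)) ProjGenLinGroup.mk_surjective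
  exact ⟨e1.trans (e2.symm.trans (e3.trans e4))⟩

end Field

/-- S2698 relative to the factorisation of automorphisms -/
theorem field_main [Fintype F] {p f : ℕ} [Fact p.Prime] (hF : Fintype.card F = p ^ f)
    (hdec : Decomp n F) (hn : 2 ≤ n) (x : MulAut (ProjectiveSpecialLinearGroup (Fin n) F))
    (hx : Cfsg.IsFieldAutClassPSL x) {r : ℕ} (hxr : orderOf x = r)
    (F₀ : Type*) [Field F₀] [Fintype F₀] (hF₀ : Fintype.card F₀ = p ^ (f / r)) :
    r ∣ f ∧ Nonempty (↥(Cfsg.inndiagPSL n F ⊓ Subgroup.centralizer {x}) ≃*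
        Matrix.ProjGenLinGroup (Fin n) F₀) ∧
      Cfsg.splitClassCount (Cfsg.inndiagPSL n F)
          (Cfsg.Inn (ProjectiveSpecialLinearGroup (Fin n) F)) x =
        Nat.gcd n ((p ^ f - 1) / (p ^ (f / r) - 1)) := by
  obtain ⟨g, σ, hσ, rfl⟩ := fieldClass_std hdec x hx
  have hσord : orderOf σ = r := by
    rw [← orderOf_injective Phi (Phi_injective hn) σ, ← hxr, orderOf_conj']
  obtain ⟨hdvd, -⟩ := Fix.fixed_card hF σ hσord
  obtain ⟨j, hj⟩ := Fix.exists_embedding hF σ hσord F₀ hF₀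
  refine ⟨hdvd, nonempty_centEquiv hn σ j hj g, ?_⟩
  have hpos : 0 < Fintype.card F₀ - 1 := by
    have := Fintype.one_lt_card (α := F₀)
    omega
  rw [splitClassCount_eq (by omega), det_Ctil_conj, det_Ctil_Phi hn σ j hj, range_units_map,
    Cyc.index_range_sup_ker n _ (card_sub_one_dvd j) hpos, Nat.card_units,
    Nat.card_eq_fintype_card, hF, hF₀]

end Cfsg.Agent.Lib.Helper53.AutPSL
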